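import Cfsg.Agent.H565.RV.Match

/-!
# TEAM RV: the number of residues of given type (helper565)

* `dvd_card_RS` : if all panels have `N` chambers and `Match cs K` then `N` divides the number of residues of type `K`;
* `ty_empty_or_univ` : type `D₄`, `H` a Hall `π`-subgroup with `p ∈ π`: the type of `H` is empty or everything.
-/

set_option autoImplicit false
set_option linter.unusedSectionVars false

open scoped Pointwise

namespace Cfsg.Agent.H565.RV

open Cfsg Subgroup Cfsg.Agent.Tits.Core Cfsg.Agent.Tits.Core.Bldg Cfsg.Agent.Tits.Exchange Cfsg.Agent.Tits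
open Cfsg.Agent.FixBN (Sys)
open Cfsg.Agent.FixOdd (Tw)
open Cfsg.Agent.H454.PiBS
open Cfsg.Agent.LieRecognition.CoxClass (Lab mD)

variable {I : Type*} {M : CoxeterMatrix I} {W : Type*} [Group W] {cs : CoxeterSystem M W} {C : Type*}

local prefix:100 "ℓ" => cs.length

/-- the residues of type `K` -/
abbrev RS (Δ : Bldg cs C) (K : Set I) : Type _ := {R : Set C // ∃ y, R = Δ.Res K y}

/-- the coset attached to a chamber and a residue -/
noncomputable def col (Δ : Bldg cs C) {K : Set I} (x : C) (R : RS Δ K) : W ⧸ WJ cs K :=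
  QuotientGroup.mk (Δ.δ x R.2.choose)

variable {Δ : Bldg cs C} {K : Set I}

theorem RS.eq_res (R : RS Δ K) {z : C} (hz : z ∈ R.1) : R.1 = Δ.Res K z := by
  obtain ⟨y, hy⟩ := R.2
  rw [hy] at hz ⊢
  exact (Δ.Res_eq_of_mem hz).symm

theorem col_eq (x : C) (R : RS Δ K) {z : C} (hz : z ∈ R.1) : col Δ x R = QuotientGroup.mk (Δ.δ x z) := by
  have h1 : R.2.choose ∈ R.1 := by
    have h2 := R.2.choose_spec
    have h3 : R.2.choose ∈ Δ.Res K R.2.choose := Δ.self_mem_Res _ _
    exact (Set.ext_iff.1 h2 _).2 h3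
  rw [col, eq_comm, QuotientGroup.eq]
  refine δ_mem_coset x ?_
  rw [← R.eq_res hz]
  exact h1

theorem exists_of_col (x : C) (R : RS Δ K) {w : W} (h : col Δ x R = QuotientGroup.mk w) : ∃ y ∈ R.1, Δ.δ x y = w := by
  obtain ⟨z, hz⟩ := R.2
  have hzR : z ∈ R.1 := by rw [hz]; exact Δ.self_mem_Res _ _
  rw [col_eq x R hzR, QuotientGroup.eq] at h
  obtain ⟨t, ht, ht'⟩ := Δ.exists_δ_mul_mem_Res x (Δ.self_mem_Res K z) h
  rw [mul_inv_cancel_left] at ht'
  exact ⟨t, by rw [hz]; exact ht, ht'⟩

variable {G : Type*} [Group G] [MulAction G C] {p : ℕ} (S : Sys Δ G p) [F : OppRes.Cox cs]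

/-- the action on the residues -/
def smulRS (g : G) (R : RS Δ K) : RS Δ K := ⟨g • R.1, by
  obtain ⟨y, hy⟩ := R.2
  exact ⟨g • y, by rw [hy, S.smul_Res]⟩⟩

omit F in
theorem col_smul (g : G) (x : C) (R : RS Δ K) : col Δ (g • x) (smulRS S g R) = col Δ x R := by
  obtain ⟨z, hz⟩ := R.2
  have hzR : z ∈ R.1 := by rw [hz]; exact Δ.self_mem_Res _ _
  rw [col_eq x R hzR, col_eq (z := g • z), S.iso]
  exact Set.smul_mem_smul_set hzR

include S in
/-- homogeneity -/
theorem card_col (hth : Δ.Thick) (x z : C) (c : W ⧸ WJ cs K) :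
    Nat.card {R : RS Δ K // col Δ z R = c} = Nat.card {R : RS Δ K // col Δ x R = c} := by
  obtain ⟨g, rfl⟩ := exists_smul S hth x z
  refine (Nat.card_congr ?_).symm
  refine ⟨fun R => ⟨smulRS S g R.1, by rw [col_smul, R.2]⟩, fun R => ⟨smulRS S g⁻¹ R.1, ?_⟩, ?_, ?_⟩
  · have h := col_smul S g⁻¹ (g • x) R.1
    rw [inv_smul_smul] at h
    rw [h, R.2]
  · rintro ⟨⟨R, hR⟩, h⟩
    apply Subtype.ext
    apply Subtype.ext
    exact inv_smul_smul g R
  · rintro ⟨⟨R, hR⟩, h⟩
    apply Subtype.ext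
    apply Subtype.ext
    exact smul_inv_smul g R

omit F in
/-- the chambers of a panel as seen from `y` -/
theorem δ_of_panel {i : I} {x z : C} (hz : z ∈ Δ.Res {i} x) (y : C) : Δ.δ z y = Δ.δ x y ∨ Δ.δ z y = cs.simple i * Δ.δ x y := by
  rcases mem_Res_single.1 hz with rfl | h
  · exact Or.inl rfl
  · rcases Δ.step y x z i h with h1 | h1
    · right
      rw [Δ.symm y z, h1, Δ.symm x y, mul_inv_rev, inv_inv, cs.inv_simple]
    · left
      rw [Δ.symm y z, h1, Δ.symm x y, inv_inv]

omit F in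
theorem δ_panel_lt {i : I} {x z : C} (hz : z ∈ Δ.Res {i} x) (hne : z ≠ x) {y : C}
    (hl : ℓ (Δ.δ x y) < ℓ (cs.simple i * Δ.δ x y)) : Δ.δ z y = cs.simple i * Δ.δ x y := by
  have h : Δ.δ z x = cs.simple i := by
    rcases mem_Res_single.1 hz with h | h
    · exact absurd h hne
    · rw [Δ.symm x z, h, cs.inv_simple]
  refine Δ.δ_mul_of h rfl ?_
  have h1 := cs.length_simple_mul (Δ.δ x y) i
  rw [cs.length_simple]
  omega

include S in
/-- **the pairs** -/
theorem dvd_pair [Finite C] (hth : Δ.Thick) {N : ℕ} {i : I} {x : C} (hN : Nat.card (Δ.Res {i} x) = N)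
    (c : W ⧸ WJ cs K) (hc : cs.simple i • c ≠ c) :
    N ∣ Nat.card {R : RS Δ K // col Δ x R = c} + Nat.card {R : RS Δ K // col Δ x R = cs.simple i • c} := by
  classical
  have hfR : Finite (RS Δ K) := Subtype.finite
  have hss : ∀ c : W ⧸ WJ cs K, cs.simple i • cs.simple i • c = c := fun c => by
    rw [← mul_smul, cs.simple_mul_simple_self, one_smul]
  -- an element of minimal length
  obtain ⟨w, hw, hmin⟩ : ∃ w : W, ((QuotientGroup.mk w : W ⧸ WJ cs K) = c ∨
      (QuotientGroup.mk w : W ⧸ WJ cs K) = cs.simple i • c) ∧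
      ∀ w' : W, ((QuotientGroup.mk w' : W ⧸ WJ cs K) = c ∨
      (QuotientGroup.mk w' : W ⧸ WJ cs K) = cs.simple i • c) → ℓ w ≤ ℓ w' := by
    obtain ⟨w0, hw0⟩ := QuotientGroup.mk_surjective c
    have hne : {w : W | (QuotientGroup.mk w : W ⧸ WJ cs K) = c ∨
      (QuotientGroup.mk w : W ⧸ WJ cs K) = cs.simple i • c}.Nonempty := ⟨w0, Or.inl hw0⟩
    obtain ⟨w, hw, hm⟩ := WellFounded.has_min (measure fun w : W => ℓ w).wf _ hne
    exact ⟨w, hw, fun w' hw' => not_lt.1 (hm w' hw')⟩
  wlog hwc : (QuotientGroup.mk w : W ⧸ WJ cs K) = c generalizing c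
  · have hw' : (QuotientGroup.mk w : W ⧸ WJ cs K) = cs.simple i • c := hw.resolve_left hwc
    have h1 := this (cs.simple i • c) (by rw [hss]; exact fun h => hc h.symm) (Or.inl hw')
      (fun w' h => hmin w' (by rw [hss] at h; exact h.symm)) hw'
    rw [hss, add_comm] at h1
    exact h1
  have hmk : (QuotientGroup.mk (cs.simple i * w) : W ⧸ WJ cs K) = cs.simple i • c := by rw [← hwc]; rfl
  have hlt : ℓ w < ℓ (cs.simple i * w) := by
    have h1 := hmin _ (Or.inr hmk)
    have h2 := cs.length_simple_mul w i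
    omega
  -- uniqueness of the first chamber
  have huniq : ∀ (R : RS Δ K) (z z' : C), z ∈ Δ.Res {i} x → z' ∈ Δ.Res {i} x → col Δ z R = c → col Δ z' R = c → z = z' := by
    intro R z z' hz hz' h1 h2
    by_contra hne
    rw [← hwc] at h1
    obtain ⟨y, hy, hzy⟩ := exists_of_col z R h1
    have h3 : z' ∈ Δ.Res {i} z := by rw [Δ.Res_eq_of_mem hz]; exact hz'
    have h4 := δ_panel_lt h3 (fun h => hne h.symm) (y := y) (by rw [hzy]; exact hlt)
    rw [col_eq z' R hy, h4, hzy, hmk] at h2
    exact hc h2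
  -- existence
  have hex : ∀ R : RS Δ K, (col Δ x R = c ∨ col Δ x R = cs.simple i • c) → ∃ z ∈ Δ.Res {i} x, col Δ z R = c := by
    intro R hR
    rcases hR with h | h
    · exact ⟨x, Δ.self_mem_Res _ _, h⟩
    · rw [← hmk] at h
      obtain ⟨y, hy, hxy⟩ := exists_of_col x R h
      obtain ⟨z, hz, hzy⟩ := FixBN.exists_first Δ (x := x) (y := y) (i := i) (by
        rw [hxy, ← mul_assoc, cs.simple_mul_simple_self, one_mul]; exact hlt)
      refine ⟨z, mem_Res_single.2 (Or.inr hz), ?_⟩
      rw [col_eq z R hy, hzy, hxy, ← mul_assoc, cs.simple_mul_simple_self, one_mul, hwc]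
  have hback : ∀ (R : RS Δ K) (z : C), z ∈ Δ.Res {i} x → col Δ z R = c → (col Δ x R = c ∨ col Δ x R = cs.simple i • c) := by
    intro R z hz h
    rw [← hwc] at h
    obtain ⟨y, hy, hzy⟩ := exists_of_col z R h
    have h3 : x ∈ Δ.Res {i} z := Δ.mem_Res_symm hz
    rw [col_eq x R hy]
    rcases δ_of_panel h3 y with h4 | h4
    · left; rw [h4, hzy, hwc]
    · right; rw [h4, hzy, hmk]
  -- the count
  have e1 : {R : RS Δ K // col Δ x R = c ∨ col Δ x R = cs.simple i • c} ≃
      Σ z : Δ.Res {i} x, {R : RS Δ K // col Δ z.1 R = c} := by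
    refine ⟨fun R => ⟨⟨(hex R.1 R.2).choose, (hex R.1 R.2).choose_spec.1⟩, ⟨R.1, (hex R.1 R.2).choose_spec.2⟩⟩,
      fun a => ⟨a.2.1, hback a.2.1 a.1.1 a.1.2 a.2.2⟩, fun R => rfl, ?_⟩
    rintro ⟨⟨z, hz⟩, ⟨R, hR⟩⟩
    have h1 := hex R (hback R z hz hR)
    have h2 : h1.choose = z := huniq R _ _ h1.choose_spec.1 hz h1.choose_spec.2 hR
    simp only [Sigma.mk.injEq, Subtype.mk.injEq]
    refine ⟨h2, ?_⟩
    congr! 
  have e2 : Nat.card {R : RS Δ K // col Δ x R = c ∨ col Δ x R = cs.simple i • c} =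
      Nat.card {R : RS Δ K // col Δ x R = c} + Nat.card {R : RS Δ K // col Δ x R = cs.simple i • c} := by
    rw [← Nat.card_sum]
    refine Nat.card_congr (Equiv.trans ?_ (subtypeOrEquiv _ _ ?_))
    · exact Equiv.refl _
    · rw [Pi.disjoint_iff]
      intro R
      rw [Prop.disjoint_iff]
      rintro ⟨h1, h2⟩
      exact hc (h2.symm.trans h1)
  have := Fintype.ofFinite (Δ.Res {i} x)
  rw [← e2, Nat.card_congr e1, Nat.card_sigma, Finset.sum_congr rfl (fun z _ => card_col S hth x z.1 c),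
    Finset.sum_const, Finset.card_univ, ← Nat.card_eq_fintype_card, hN, smul_eq_mul]
  exact Dvd.intro _ rfl

include S in
/-- **the number of residues** -/
theorem dvd_card_RS [Finite C] [Finite W] (hth : Δ.Thick) {N : ℕ} (x : C) (hN : ∀ i, Nat.card (Δ.Res {i} x) = N)
    (hM : Match cs K) : N ∣ Nat.card (RS Δ K) := by
  classical
  obtain ⟨f, hf⟩ := hM
  have hfR : Finite (RS Δ K) := Subtype.finite
  have := Fintype.ofFinite (W ⧸ WJ cs K)
  rw [Nat.card_congr (Equiv.sigmaFiberEquiv (col Δ x (K := K))).symm, Nat.card_sigma]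
  rw [← CharP.cast_eq_zero_iff (ZMod N), Nat.cast_sum]
  refine Finset.sum_involution (fun c _ => cs.simple (f c) • c) ?_ ?_ (fun _ _ => Finset.mem_univ _) ?_
  · intro c _
    rw [← Nat.cast_add, CharP.cast_eq_zero_iff (ZMod N) N]
    exact dvd_pair S hth (hN (f c)) c (hf c).1
  · intro c _ _
    exact (hf c).1
  · intro c _
    rw [(hf c).2, ← mul_smul, cs.simple_mul_simple_self, one_smul]

include S in
theorem index_stab_Res [Finite G] (hth : Δ.Thick) (x : C) (K : Set I) :
    (MulAction.stabilizer G (Δ.Res K x)).index = Nat.card (RS Δ K) := by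
  rw [MulAction.index_stabilizer, ← Nat.card_coe_set_eq]
  refine Nat.card_congr (Equiv.subtypeEquivRight fun R => ?_)
  constructor
  · rintro ⟨g, rfl⟩
    exact ⟨g • x, S.smul_Res g K x⟩
  · rintro ⟨y, rfl⟩
    obtain ⟨g, hg⟩ := exists_smul S hth x y
    exact ⟨g, by change g • Δ.Res K x = _; rw [S.smul_Res, hg]⟩

/-! ### the sizes of the panels -/

omit F in
/-- projection between parallel panels: `s w = w t`, `ℓ (s w) > ℓ w`: the panels have the same size -/
theorem card_panel_le [Finite C] {i j : I} {w : W} (h : cs.simple i * w = w * cs.simple j)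
    (hl : ℓ w < ℓ (cs.simple i * w)) {x y : C} (hxy : Δ.δ x y = w) :
    Nat.card (Δ.Res {i} x) ≤ Nat.card (Δ.Res {j} y) := by
  have hl' : ℓ (w * cs.simple j) = ℓ w + 1 := by
    rw [← h]
    have h2 := cs.length_simple_mul w i
    omega
  -- from each `z` a chamber at distance `w`
  have key : ∀ z ∈ Δ.Res {i} x, ∃ z' ∈ Δ.Res {j} y, Δ.δ z z' = w := by
    intro z hz
    rcases δ_of_panel hz y with h1 | h1
    · exact ⟨y, Δ.self_mem_Res _ _, h1.trans hxy⟩
    · rw [hxy, h] at h1
      obtain ⟨z', hz', h2⟩ := Δ.exists_between h1 (by rw [hl', cs.length_simple])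
      exact ⟨z', Δ.mem_Res_symm (mem_Res_single.2 (Or.inr h2)), hz'⟩
  choose f hf1 hf2 using key
  refine Nat.card_le_card_of_injective (fun z : Δ.Res {i} x => (⟨f z.1 z.2, hf1 z.1 z.2⟩ : Δ.Res {j} y)) ?_
  rintro ⟨z, hz⟩ ⟨z', hz'⟩ he
  have he' : f z hz = f z' hz' := congrArg Subtype.val he
  apply Subtype.ext
  change z = z'
  by_contra hne
  have h3 : z' ∈ Δ.Res {i} z := by rw [Δ.Res_eq_of_mem hz]; exact hz'
  have h4 := δ_panel_lt h3 (fun h => hne h.symm) (y := f z hz) (by rw [hf2]; exact hl)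
  rw [he', hf2] at h4
  have h5 := hf2 z hz
  rw [he'] at h5
  rw [h5] at h4
  rw [← h4] at hl
  exact lt_irrefl _ hl

theorem card_panel_eq_of_three [Finite C] {i j : I} (hM : M i j = 3) (x y : C) (htr : ∀ (i : I) (a b : C), Nat.card (Δ.Res {i} a) = Nat.card (Δ.Res {i} b)) :
    Nat.card (Δ.Res {i} x) = Nat.card (Δ.Res {j} y) := by
  have hMs : M j i = 3 := by rw [M.symmetric]; exact hM
  have hrel : cs.simple i * cs.simple j * cs.simple i = cs.simple j * cs.simple i * cs.simple j := by
    have h1 := cs.simple_mul_simple_pow i j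
    rw [hM] at h1
    have h2 : cs.simple i * cs.simple j * cs.simple i * (cs.simple j * cs.simple i * cs.simple j) = 1 := by
      rw [← h1, pow_succ, pow_two]; simp only [mul_assoc]
    have h3 := eq_inv_of_mul_eq_one_left h2
    rw [h3]
    simp only [mul_inv_rev, cs.inv_simple, mul_assoc]
  have key : ∀ {i j : I}, M i j = 3 → cs.simple i * cs.simple j * cs.simple i = cs.simple j * cs.simple i * cs.simple j →
      ∀ x y : C, Nat.card (Δ.Res {i} x) ≤ Nat.card (Δ.Res {j} y) := by
    intro i j hM hrel x y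
    -- `w = j i`: `i w = i j i = j i j = w j`
    have hij : i ≠ j := by
      rintro rfl
      rw [M.diagonal] at hM
      omega
    have h1 : cs.simple i * (cs.simple j * cs.simple i) = cs.simple j * cs.simple i * cs.simple j := by
      rw [← mul_assoc, hrel]
    have hl : ℓ (cs.simple j * cs.simple i) < ℓ (cs.simple i * (cs.simple j * cs.simple i)) := by
      by_contra hcon
      have hji : cs.simple j * cs.simple i ≠ 1 := fun h => hij (F.inj (by
        have := eq_inv_of_mul_eq_one_left h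
        rw [cs.inv_simple] at this
        exact this.symm))
      have e1 := cs.length_simple_mul (cs.simple i) j
      have e2 := cs.length_simple_mul (cs.simple j * cs.simple i) i
      rw [cs.length_simple] at e1
      have e3 : ℓ (cs.simple j * cs.simple i) ≠ 0 := fun h => hji (cs.length_eq_zero_iff.1 h)
      obtain ⟨k, hk⟩ := (cs.length_eq_one_iff (w := cs.simple i * (cs.simple j * cs.simple i))).1 (by omega)
      have hkm : k = i ∨ k = j := by
        have h3 : cs.simple k ∈ WJ cs ({i, j} : Set I) := by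
          rw [← hk]
          have hi : cs.simple i ∈ WJ cs ({i, j} : Set I) := Subgroup.subset_closure ⟨i, Or.inl rfl, rfl⟩
          have hj : cs.simple j ∈ WJ cs ({i, j} : Set I) := Subgroup.subset_closure ⟨j, Or.inr rfl, rfl⟩
          exact mul_mem hi (mul_mem hj hi)
        exact F.descent_mem _ _ h3 k (by rw [cs.simple_mul_simple_self, cs.length_one, cs.length_simple]; exact one_pos)
      rcases hkm with rfl | rfl
      · exact hji (mul_eq_left.1 hk)
      · have h4 : cs.simple i * cs.simple k * (cs.simple i * cs.simple k) = 1 := by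
          calc cs.simple i * cs.simple k * (cs.simple i * cs.simple k)
              = cs.simple i * (cs.simple k * cs.simple i) * cs.simple k := by simp only [mul_assoc]
            _ = 1 := by rw [hk, cs.simple_mul_simple_self]
        have h5 := cs.simple_mul_simple_pow i k
        rw [hM, pow_succ, pow_two, h4, one_mul] at h5
        have h6 := eq_inv_of_mul_eq_one_left h5
        rw [cs.inv_simple] at h6
        exact hij (F.inj h6)
    obtain ⟨z, hz⟩ := Δ.exists_δ x (cs.simple j * cs.simple i)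
    exact (card_panel_le h1 hl hz).trans (le_of_eq (htr j _ _))
  exact le_antisymm (key hM hrel x y) (key hMs hrel.symm y x)

/-! ### the types of the Hall subgroups -/

include S in
/-- **the type of a Hall subgroup, for the types with matchings and equal parameters** -/
theorem ty_empty_or_univ [Finite G] [Finite W] [hp : Fact p.Prime] (hth : Δ.Thick) {N : ℕ}
    (hN : ∀ i x, Nat.card (Δ.Res {i} x) = N) (hM : ∀ k : I, Match cs ({k}ᶜ : Set I)) {π : Set ℕ} {H : Subgroup G}
    (hH : IsPiHall π H) {x : C} (hx : S.U x ≤ H) : Ty Δ H x = ∅ ∨ Ty Δ H x = Set.univ := by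
  have hfC : Finite C := by
    have hsurj : Function.Surjective (fun g : G => g • x) := fun y => exists_smul S hth x y
    exact Finite.of_surjective _ hsurj
  by_contra hcon
  rw [not_or] at hcon
  obtain ⟨h1, h2⟩ := hcon
  obtain ⟨i, hi⟩ := Set.nonempty_iff_ne_empty.2 h1
  obtain ⟨k, hk⟩ := (Set.ne_univ_iff_exists_notMem _).1 h2
  -- `N` divides the index
  have hd1 : N ∣ H.index := by
    have h3 := dvd_card_RS S hth x (fun i => hN i x) (hM k)
    rw [← index_stab_Res S hth x] at h3
    refine h3.trans (index_dvd_of_le fun h hh => ?_)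
    refine smul_Res_eq S hth hx ?_ hh
    intro j hj
    rw [Set.mem_compl_singleton_iff]
    rintro rfl
    exact hk hj
  -- `N` divides the order
  have hd2 : N ∣ Nat.card H := by
    set X := H ⊓ MulAction.stabilizer G (Δ.Res {i} x) with hX
    have h4 : ∀ g ∈ X, ∀ z ∈ Δ.Res {i} x, g • z ∈ Δ.Res {i} x := by
      rintro g ⟨-, hg⟩ z hz
      have hg' : g • Δ.Res {i} x = Δ.Res {i} x := hg
      rw [← hg']
      exact Set.smul_mem_smul_set hz
    have h5 : (MulAction.orbit X x) = Δ.Res {i} x := by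
      ext z
      constructor
      · rintro ⟨⟨g, hg⟩, rfl⟩
        exact h4 g hg x (Δ.self_mem_Res _ _)
      · intro hz
        obtain ⟨h, hh, hhz⟩ := exists_smul_of_mem_Res S hx (Δ.Res_mono (Set.singleton_subset_iff.2 hi) x hz)
        refine ⟨⟨h, hh, ?_⟩, hhz⟩
        change h • Δ.Res {i} x = Δ.Res {i} x
        rw [S.smul_Res, hhz, Δ.Res_eq_of_mem hz]
    have h6 : Nat.card (MulAction.orbit X x) ∣ Nat.card X := by
      rw [Nat.card_coe_set_eq, ← MulAction.index_stabilizer]
      exact Subgroup.index_dvd_card _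
    rw [h5, hN] at h6
    exact h6.trans (Subgroup.card_dvd_of_le inf_le_left)
  -- a prime divisor of `N`
  have hN1 : N ≠ 1 := by
    intro h
    obtain ⟨a, b, hab, ha, hb⟩ := hth x i
    have h7 := hN i x
    rw [h] at h7
    have h8 : Nat.card (Δ.Res {i} x) ≤ 1 := by omega
    have := Finite.card_le_one_iff_subsingleton.1 h8
    have h9 := Subsingleton.elim (⟨a, mem_Res_single.2 (Or.inr ha)⟩ : Δ.Res {i} x) ⟨b, mem_Res_single.2 (Or.inr hb)⟩
    exact hab (congrArg Subtype.val h9)
  obtain ⟨r, hr, hrN⟩ := Nat.exists_prime_and_dvd hN1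
  exact hH.2 r hr (hH.1 r hr (hrN.trans hd2)) (hrN.trans hd1)

include S in
/-- **type `D₄`** -/
theorem ty_D4 [Finite G] [Finite W] [hp : Fact p.Prime] (hth : Δ.Thick) (v : Fin 4 ≃ I) (hv : Lab M v (mD 4))
    {π : Set ℕ} {H : Subgroup G} (hH : IsPiHall π H) {x : C} (hx : S.U x ≤ H) :
    Ty Δ H x = ∅ ∨ Ty Δ H x = Set.univ := by
  have hfC : Finite C := by
    have hsurj : Function.Surjective (fun g : G => g • x) := fun y => exists_smul S hth x y
    exact Finite.of_surjective _ hsurj
  have htr : ∀ (i : I) (a b : C), Nat.card (Δ.Res {i} a) = Nat.card (Δ.Res {i} b) := by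
    intro i a b
    obtain ⟨g, rfl⟩ := exists_smul S hth a b
    rw [← S.smul_Res]
    exact (Nat.card_congr (Equiv.Set.image _ _ (MulAction.injective g)))
  have h3 : ∀ (i : I) (z : C), Nat.card (Δ.Res {i} z) = Nat.card (Δ.Res {v 1} x) := by
    intro i z
    obtain ⟨i, rfl⟩ := v.surjective i
    fin_cases i
    · exact card_panel_eq_of_three (by rw [hv]; decide) z x htr
    · exact htr _ _ _
    · exact card_panel_eq_of_three (by rw [hv]; decide) z x htr
    · exact card_panel_eq_of_three (by rw [hv]; decide) z x htr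
  exact ty_empty_or_univ S hth h3 (fun k => match_D4 v hv k) hH hx

end Cfsg.Agent.H565.RV
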