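import Cfsg.Agent.H561.RV.OwnSplit
import Cfsg.Agent.H561.RV.Defs
import Cfsg.Agent.H565.RV.MatchB
import Cfsg.Agent.H716.SplitAb

/-!
# TEAM RV, rows `ORow` and `CRow` in the own characteristic `p ∈ π` (helper565)

* `oRow_of_abSplit` : `K` a finite simple group with `AbSplit p K`, `p ∈ π`: automorphisms of odd order fix the classes of
  Hall `π`-subgroups (also for the diagram `D₄`);
* `oRow_own`, `cRow_own` : the simple groups of Lie type in characteristic `p`.
-/

set_option autoImplicit false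
set_option linter.unusedSectionVars false

open scoped Pointwise

namespace Cfsg.Agent.H565.RV

open Cfsg Subgroup Cfsg.Agent.Tits.Core Cfsg.Agent.Tits.Core.Bldg Cfsg.Agent.Tits.Exchange Cfsg.Agent.Tits
open Cfsg.Agent.FixBN (Sys Split)
open Cfsg.Agent.FixOdd (Tw)
open Cfsg.Agent.H454.PiBS
open Cfsg.Agent.H561.RV Cfsg.Agent.H561.RV.DiagSym Cfsg.Agent.H561.RV.Own
open Cfsg.Agent.LieRecognition.CoxClass (Outcome Lab mD)

universe u

/-- the data attached to `AbSplit`, with the types for `D₄` (after helper561) -/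
theorem exists_data' {K : Type u} [Group K] {p : ℕ} [Finite K] [IsSimpleGroup K] (hp : p.Prime) (h : AbSplit p K)
    {π : Set ℕ} (hpi : p ∈ π) :
    ∃ (I : Type u) (_ : Finite I) (M : CoxeterMatrix I) (ρ : MulAut K →* Equiv.Perm I) (T : Subgroup K → Set I),
      (∀ φ, ρ φ ∈ autM M) ∧ (Nat.card I ≤ 2 ∨ Outcome M) ∧
      (∀ H : Subgroup K, IsPiHall π H → ∀ φ : MulAut K, FixC φ H ↔ ρ φ '' T H = T H) ∧
      (IsD4 M → ∀ H : Subgroup K, IsPiHall π H → T H = ∅ ∨ T H = Set.univ) := by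
  obtain ⟨P, U, hne, hs, hT⟩ := h
  have : Fact p.Prime := ⟨hp⟩
  have hN : ((P.B ⊓ P.N).subgroupOf P.N).Normal := OfBN.normal_subgroupOf P
  obtain ⟨M, cs, hcs⟩ := S0320.result P
  have hI : Finite P.S := FixBN.OfBN.finite_I (Equiv.refl P.S)
  have hC : OppRes.Cox cs := inferInstance
  have hW : Finite (OfBN.WP P) := inferInstance
  have hth := OfBN.thick P (Equiv.refl P.S) cs hcs
  let S := FixBN.OfBN.sys (Equiv.refl P.S) cs hcs hs
  have htw : ∀ φ : MulAut K, ∃ t : Tw (OfBN.bldg P (Equiv.refl P.S) cs hcs) K, t.τ = φ := fun φ => by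
    obtain ⟨t, ht, -⟩ := FixOdd.exists_tw hs (Equiv.refl P.S) cs hcs φ
    exact ⟨t, ht⟩
  have htr : ∀ x y : K ⧸ P.B, ∃ g : K, g • x = y := fun x y => by
    induction x using QuotientGroup.induction_on with
    | _ a =>
    induction y using QuotientGroup.induction_on with
    | _ b =>
    refine ⟨b * a⁻¹, ?_⟩
    rw [FixBN.OfBN.smul_mk, inv_mul_cancel_right]
  have hab : ∀ x : K ⧸ P.B, ∀ a ∈ MulAction.stabilizer K x, ∀ b ∈ MulAction.stabilizer K x,
      a * b * a⁻¹ * b⁻¹ ∈ S.U x := by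
    intro x a ha b hb
    induction x using QuotientGroup.induction_on with
    | _ g =>
    change a * b * a⁻¹ * b⁻¹ ∈ FixBN.OfBN.UU P U (QuotientGroup.mk g)
    rw [FixBN.OfBN.mem_UU hs]
    have h1 := hT _ (FixBN.OfBN.smul_mk_eq.1 ha) _ (FixBN.OfBN.smul_mk_eq.1 hb)
    convert h1 using 1
    group
  have hex : ∀ H : Subgroup K, IsPiHall π H → ∃ x : K ⧸ P.B, S.U x ≤ H := by
    intro H hH
    obtain ⟨z, Q, -, hQ⟩ := exists_U_le S hH hpi (V := (⊥ : Subgroup K)) IsPGroup.of_bot bot_le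
    exact ⟨z, by rw [hQ]; exact map_subtype_le _⟩
  classical
  refine ⟨P.S, hI, M, rho S hth htw,
    fun H => if hH : IsPiHall π H then Ty (OfBN.bldg P (Equiv.refl P.S) cs hcs) H (hex H hH).choose else ∅,
    fun φ => rho_mem S hth htw φ, ?_, ?_, ?_⟩
  · rcases Nat.lt_or_ge 2 (Nat.card P.S) with h | h
    · right
      exact Cfsg.Agent.LieRecognition.BNCox.outcome P cs hcs (Cfsg.Agent.H967.SimpleIrr.irreducible hs) h
    · exact Or.inl h
  · intro H hH φ
    simp only [dif_pos hH]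
    exact fixC_iff_rho S hth htw htr hab hpi hH (hex H hH).choose_spec φ
  · rintro ⟨v, hv⟩ H hH
    simp only [dif_pos hH]
    exact ty_D4 S hth v hv hH (hex H hH).choose_spec

/-- **Automorphisms of odd order fix the classes of the Hall `π`-subgroups, `p ∈ π`.** -/
theorem oRow_of_abSplit {K : Type u} [Group K] {p : ℕ} [Finite K] [IsSimpleGroup K] (hp : p.Prime) (h : AbSplit p K)
    {π : Set ℕ} (hpi : p ∈ π) : ORow π K := by
  intro H hH φ hφ
  obtain ⟨I, _, M, ρ, T, h1, h2, h3, h4⟩ := exists_data' hp h hpi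
  have hodd : Odd (orderOf (ρ φ)) := hφ.of_dvd_nat (orderOf_map_dvd ρ φ)
  rw [h3 H hH φ]
  rcases h2 with h2 | h2
  · rw [odd_trivial_two h2 hodd]
    simp
  · by_cases hD : IsD4 M
    · rcases h4 hD H hH with h5 | h5
      · rw [h5, Set.image_empty]
      · rw [h5, Set.image_univ]
        exact (ρ φ).surjective.range_eq
    · rw [odd_trivial h2 hD (h1 φ) hodd]
      simp

/-- **The row `ORow` in own characteristic.** -/
theorem oRow_own {p : ℕ} (hp : p.Prime) {G : Type u} [Group G] [Finite G] [IsSimpleGroup G] (h : IsLieTypeChar p G)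
    {π : Set ℕ} (hpi : p ∈ π) : ORow π G :=
  oRow_of_abSplit hp (Cfsg.Agent.H716.SplitAb.hasSplitAb_of_lie hp h) hpi

/-- **The row `CRow` in own characteristic, `2 ∈ π`.** -/
theorem cRow_own {p : ℕ} (hp : p.Prime) {G : Type u} [Group G] [Finite G] [IsSimpleGroup G] (h : IsLieTypeChar p G)
    {π : Set ℕ} (h2 : 2 ∈ π) (hpi : p ∈ π) : Cfsg.Agent.H165.RV.CRow π G := by
  intro H hH φ hφ
  refine oRow_own hp h hpi H hH φ ?_
  have : Finite (MulAut G) := Finite.of_injective (fun f : MulAut G => (f : G → G)) DFunLike.coe_injective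
  rw [← Nat.not_even_iff_odd, even_iff_two_dvd]
  exact fun hd => hφ 2 Nat.prime_two hd h2

end Cfsg.Agent.H565.RV
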