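import Cfsg.Agent.H454.PiBS.Const
import Cfsg.Agent.H165.RV.Defs

/-!
# TEAM RV, row `NRow` in the own odd characteristic: the building part (helper565)

`G` acts on the building `Δ` with the system `S : Sys Δ G p`, `p` odd.

* `two_dvd_of_swap` : a subgroup `M` normalised by `s ∉ M`, `s² ∈ M`, has even index;
* `exists_smul` : `G` is transitive on the chambers;
* `smul_mem_Res` : if `U x ≤ H` then `H x ⊆ Res (Ty Δ H x) x`;
* `res_eq_of_swap` : if all `(W_J, W_J)`-double cosets are self-inverse and `P ∈ Syl₂(G)` stabilises `Res J x` and `Res J y`,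
  then these residues are equal;
* `odd_index` : if some `P ∈ Syl₂(G)` stabilises `Res J x` then `W_J` has odd index in `W`.
-/

set_option autoImplicit false
set_option linter.unusedSectionVars false

open scoped Pointwise

namespace Cfsg.Agent.H565.RV

open Cfsg Subgroup Cfsg.Agent.Tits.Core Cfsg.Agent.Tits.Core.Bldg Cfsg.Agent.Tits.Exchange Cfsg.Agent.Tits
open Cfsg.Agent.FixBN (Sys)
open Cfsg.Agent.FixOdd (Tw)
open Cfsg.Agent.H454.PiBS

/-- a subgroup normalised by `s ∉ M` with `s² ∈ M` has even index -/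
theorem two_dvd_of_swap {G : Type*} [Group G] [Finite G] {M : Subgroup G} {s : G} (hs : s ∉ M) (hs2 : s * s ∈ M)
    (hn : ∀ m ∈ M, s * m * s⁻¹ ∈ M) (hn' : ∀ m ∈ M, s⁻¹ * m * s ∈ M) : 2 ∣ M.index := by
  have hsN : s ∈ normalizer (M : Set G) := by
    rw [mem_normalizer_iff]
    intro m
    refine ⟨hn m, fun h => ?_⟩
    have := hn' _ h
    have e : s⁻¹ * (s * m * s⁻¹) * s = m := by group
    rwa [e] at this
  set N := normalizer (M : Set G) with hN
  have hMN : M ≤ N := le_normalizer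
  have hnor : (M.subgroupOf N).Normal := by
    rw [normal_subgroupOf_iff_le_normalizer hMN]
  have h1 : orderOf (QuotientGroup.mk (⟨s, hsN⟩ : N) : N ⧸ M.subgroupOf N) = 2 := by
    apply orderOf_eq_prime
    · rw [pow_two, ← QuotientGroup.mk_mul, QuotientGroup.eq_one_iff, mem_subgroupOf]
      exact hs2
    · rw [Ne, QuotientGroup.eq_one_iff, mem_subgroupOf]
      exact hs
  have h2 : 2 ∣ Nat.card (N ⧸ M.subgroupOf N) := by rw [← h1]; exact orderOf_dvd_natCard _
  exact (h2 : 2 ∣ M.relIndex N).trans (relIndex_dvd_index_of_le hMN)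

theorem eq_one_of_sq {G : Type*} [Group G] {x : G} (h : Odd (orderOf x)) (h1 : x * x = 1) : x = 1 := by
  have h2 : orderOf x ∣ 2 := orderOf_dvd_of_pow_eq_one (by rw [pow_two]; exact h1)
  rcases (Nat.dvd_prime Nat.prime_two).1 h2 with h3 | h3
  · exact orderOf_eq_one_iff.1 h3
  · rw [h3] at h; exact absurd h (by decide)

variable {I : Type*} {M : CoxeterMatrix I} {W : Type*} [Group W] {cs : CoxeterSystem M W} {C : Type*}

local prefix:100 "ℓ" => cs.length

variable {Δ : Bldg cs C} {G : Type*} [Group G] [MulAction G C] {p : ℕ} (S : Sys Δ G p) [F : OppRes.Cox cs]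

include S in
/-- `G` is transitive on the chambers -/
theorem exists_smul (hth : Δ.Thick) (x y : C) : ∃ g : G, g • x = y := by
  have hy : y ∈ Δ.Res Set.univ x := by rw [Δ.Res_univ]; trivial
  refine Δ.Res_induction (J := Set.univ) (p := fun y => ∃ g : G, g • x = y) ⟨1, one_smul _ _⟩ ?_ hy
  rintro y - z i - hyz ⟨g, rfl⟩
  -- a third chamber of the panel
  obtain ⟨a, b, hab, ha, hb⟩ := hth (g • x) i
  obtain ⟨t, ht, htz⟩ : ∃ t, Δ.δ (g • x) t = cs.simple i ∧ t ≠ z := by
    by_cases h : a = z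
    · exact ⟨b, hb, fun h' => hab (h.trans h'.symm)⟩
    · exact ⟨a, ha, h⟩
  have h1 : Δ.δ t (g • x) = cs.simple i := by rw [Δ.symm, ht, cs.inv_simple]
  have h2 : Δ.δ t z = cs.simple i := by
    rcases Δ.step t (g • x) z i hyz with h | h
    · rw [h1, cs.simple_mul_simple_self, Δ.eq_one] at h
      exact absurd h htz
    · rw [h, h1]
  obtain ⟨u, -, hu⟩ := S.exists_move (h1.trans h2.symm)
  exact ⟨u * g, by rw [mul_smul, hu]⟩

include S in
/-- `G` is transitive on the pairs of chambers at given distance -/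
theorem exists_smul_pair (hth : Δ.Thick) {x y a b : C} (h : Δ.δ x y = Δ.δ a b) : ∃ g : G, g • x = a ∧ g • y = b := by
  obtain ⟨g, hg⟩ := exists_smul S hth x a
  have h1 : Δ.δ a (g • y) = Δ.δ a b := by rw [← h, ← hg, S.iso]
  obtain ⟨u, hu, hub⟩ := S.exists_move h1
  exact ⟨u * g, by rw [mul_smul, hg, S.fix a u hu], by rw [mul_smul, hub]⟩

/-- the `H`-orbit of `x` lies in the residue of type `Ty Δ H x` -/
theorem smul_mem_Res (hth : Δ.Thick) {H : Subgroup G} {x : C} (hx : S.U x ≤ H) :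
    ∀ (n : ℕ) (h : G), h ∈ H → ℓ (Δ.δ x (h • x)) = n → h • x ∈ Δ.Res (Ty Δ H x) x := by
  intro n
  induction n with
  | zero =>
    intro h _ hn
    rw [cs.length_eq_zero_iff, Δ.eq_one] at hn
    rw [← hn]
    exact Δ.self_mem_Res _ _
  | succ n ih =>
    intro h hh hn
    have hne : Δ.δ x (h • x) ≠ 1 := fun h1 => by rw [h1, cs.length_one] at hn; omega
    obtain ⟨i, hi⟩ := cs.exists_leftDescent_of_ne_one hne
    rw [cs.isLeftDescent_iff] at hi
    have hi' : ℓ (cs.simple i * Δ.δ x (h • x)) < ℓ (Δ.δ x (h • x)) := by omega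
    obtain ⟨x', hx', hx'y⟩ := FixBN.exists_first Δ hi'
    -- a third chamber
    obtain ⟨a, b, hab, ha, hb⟩ := hth x i
    obtain ⟨z, hz, hzx'⟩ : ∃ t, Δ.δ x t = cs.simple i ∧ t ≠ x' := by
      by_cases h : a = x'
      · exact ⟨b, hb, fun h' => hab (h.trans h'.symm)⟩
      · exact ⟨a, ha, h⟩
    have h1 : Δ.δ z x = cs.simple i := by rw [Δ.symm, hz, cs.inv_simple]
    have h2 : Δ.δ z x' = cs.simple i := by
      rcases Δ.step z x x' i hx' with h | h
      · rw [h1, cs.simple_mul_simple_self, Δ.eq_one] at h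
        exact absurd h hzx'
      · rw [h, h1]
    have h3 : Δ.δ z (h • x) = Δ.δ x (h • x) := by
      have h4 := Δ.δ_mul_of h2 hx'y (by
        rw [← mul_assoc, cs.simple_mul_simple_self, one_mul, cs.length_simple]
        omega)
      rw [h4, ← mul_assoc, cs.simple_mul_simple_self, one_mul]
    have h5 : Δ.δ (h • x) z = Δ.δ (h • x) x := by rw [Δ.symm z, Δ.symm x, h3]
    obtain ⟨u, hu, huz⟩ := S.exists_move h5.symm
    have huH : u ∈ H := by
      have h6 := S.conj_mem_U hu h⁻¹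
      rw [inv_smul_smul] at h6
      have h7 := mul_mem (mul_mem hh (hx h6)) (inv_mem hh)
      have h8 : h * (h⁻¹ * u * h⁻¹⁻¹) * h⁻¹ = u := by group
      rwa [h8] at h7
    have hiT : i ∈ Ty Δ H x := ⟨u, huH, by rw [huz, hz]⟩
    have hx'R : x' ∈ Δ.Res (Ty Δ H x) x := by
      rw [mem_Res, hx']; exact Subgroup.subset_closure ⟨i, hiT, rfl⟩
    obtain ⟨k, hk, hkx⟩ := exists_smul_of_mem_Res S hx hx'R
    have h9 : Δ.δ x ((k⁻¹ * h) • x) = cs.simple i * Δ.δ x (h • x) := by
      rw [← hx'y, ← hkx, mul_smul, ← S.iso k x (k⁻¹ • h • x), smul_inv_smul]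
    have h10 := ih (k⁻¹ * h) (mul_mem (inv_mem hk) hh) (by rw [h9]; omega)
    have h11 : h • x ∈ Δ.Res (Ty Δ H x) (k • x) := by
      have h12 := S.smul_mem_Res (g := k) h10
      rwa [mul_smul, smul_inv_smul] at h12
    rw [hkx, Δ.Res_eq_of_mem hx'R] at h11
    exact h11

/-- `H` stabilises the residues of the types containing `Ty Δ H x` -/
theorem smul_Res_eq (hth : Δ.Thick) {H : Subgroup G} {x : C} (hx : S.U x ≤ H) {J : Set I} (hJ : Ty Δ H x ⊆ J) {h : G}
    (hh : h ∈ H) : h • Δ.Res J x = Δ.Res J x := by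
  rw [S.smul_Res]
  exact Δ.Res_eq_of_mem (Δ.Res_mono hJ x (smul_mem_Res S hth hx _ h hh rfl))

/-- all `(W_J, W_J)`-double cosets are self-inverse -/
def SelfInv (cs : CoxeterSystem M W) (J : Set I) : Prop :=
  ∀ w : W, ∃ a ∈ WJ cs J, ∃ b ∈ WJ cs J, w⁻¹ = a * w * b

omit F in
/-- a residue is determined by the stabiliser of one of its chambers ... -/
theorem Res_eq_iff {J : Set I} {x y : C} : Δ.Res J x = Δ.Res J y ↔ y ∈ Δ.Res J x :=
  ⟨fun h => by rw [h]; exact Δ.self_mem_Res _ _, fun h => (Δ.Res_eq_of_mem h).symm⟩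

include S in
/-- two residues of the same type stabilised by a Sylow 2-subgroup -/
theorem res_eq_of_swap [Finite G] (hth : Δ.Thick) {J : Set I} (hJ : SelfInv cs J) {x y : C} {P : Subgroup G}
    (hP : ¬ 2 ∣ P.index) (h1 : ∀ g ∈ P, g • Δ.Res J x = Δ.Res J x) (h2 : ∀ g ∈ P, g • Δ.Res J y = Δ.Res J y) :
    Δ.Res J x = Δ.Res J y := by
  by_contra hne
  obtain ⟨a, ha, b, hb, hab⟩ := hJ (Δ.δ x y)
  -- `z ∈ Res x`, `t ∈ Res y` with `δ z t = δ y x`
  obtain ⟨x', hx', hx'y⟩ : ∃ x' ∈ Δ.Res J x, Δ.δ x' y = a * Δ.δ x y := by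
    obtain ⟨x', hx', h3⟩ := Δ.exists_δ_mul_mem_Res y (Δ.self_mem_Res J x) (inv_mem ha)
    refine ⟨x', hx', ?_⟩
    rw [Δ.symm y x', h3, Δ.symm x y, mul_inv_rev, inv_inv, inv_inv]
  obtain ⟨y', hy', hy'x⟩ := Δ.exists_δ_mul_mem_Res x' (Δ.self_mem_Res J y) hb
  rw [hx'y, ← hab, ← Δ.symm] at hy'x
  -- `δ x' y' = δ y x`
  obtain ⟨s, hs1, hs2⟩ := exists_smul_pair S hth (x := y) (y := x) (a := x') (b := y') hy'x.symm
  have e1 : s • Δ.Res J y = Δ.Res J x := by rw [S.smul_Res, hs1, Δ.Res_eq_of_mem hx']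
  have e2 : s • Δ.Res J x = Δ.Res J y := by rw [S.smul_Res, hs2, Δ.Res_eq_of_mem hy']
  set M := MulAction.stabilizer G (Δ.Res J x) ⊓ MulAction.stabilizer G (Δ.Res J y) with hM
  have hPM : P ≤ M := fun g hg => ⟨h1 g hg, h2 g hg⟩
  have key : ∀ {s : G}, s • Δ.Res J y = Δ.Res J x → s • Δ.Res J x = Δ.Res J y → ∀ m ∈ M, s * m * s⁻¹ ∈ M := by
    rintro s e1 e2 m ⟨hm1, hm2⟩
    have hm1' : m • Δ.Res J x = Δ.Res J x := hm1
    have hm2' : m • Δ.Res J y = Δ.Res J y := hm2
    have e1' : s⁻¹ • Δ.Res J x = Δ.Res J y := by rw [inv_smul_eq_iff, e1]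
    have e2' : s⁻¹ • Δ.Res J y = Δ.Res J x := by rw [inv_smul_eq_iff, e2]
    refine ⟨?_, ?_⟩
    · change (s * m * s⁻¹) • Δ.Res J x = Δ.Res J x
      rw [mul_smul, mul_smul, e1', hm2', e1]
    · change (s * m * s⁻¹) • Δ.Res J y = Δ.Res J y
      rw [mul_smul, mul_smul, e2', hm1', e2]
  have hdvd : 2 ∣ M.index := by
    refine two_dvd_of_swap (s := s) ?_ ?_ (key e1 e2) ?_
    · rintro ⟨h3, -⟩
      have h3' : s • Δ.Res J x = Δ.Res J x := h3
      exact hne (h3'.symm.trans e2)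
    · refine ⟨?_, ?_⟩
      · change (s * s) • Δ.Res J x = Δ.Res J x
        rw [mul_smul, e2, e1]
      · change (s * s) • Δ.Res J y = Δ.Res J y
        rw [mul_smul, e1, e2]
    · have e1' : s⁻¹ • Δ.Res J x = Δ.Res J y := by rw [inv_smul_eq_iff, e1]
      have e2' : s⁻¹ • Δ.Res J y = Δ.Res J x := by rw [inv_smul_eq_iff, e2]
      intro m hm
      have := key e2' e1' m hm
      rwa [inv_inv] at this
  exact hP (hdvd.trans (index_dvd_of_le hPM))

/-! ### parity of the index -/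

theorem card_eq_of_ker {X A B : Type*} (φ : X → A) (ψ : X → B) (hφ : Function.Surjective φ)
    (hψ : Function.Surjective ψ) (h : ∀ x y, φ x = φ y ↔ ψ x = ψ y) : Nat.card A = Nat.card B := by
  have e1 := (Setoid.quotientKerEquivOfSurjective φ hφ).symm
  have e2 : Quotient (Setoid.ker φ) ≃ Quotient (Setoid.ker ψ) :=
    Quotient.congr (Equiv.refl X) (fun a b => h a b)
  exact Nat.card_congr (e1.trans (e2.trans (Setoid.quotientKerEquivOfSurjective ψ hψ)))

/-- parity of the number of orbits of a group of odd order -/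
theorem odd_card_iff {D X : Type*} [Group D] [MulAction D X] [Finite X] [Finite D] (hD : Odd (Nat.card D)) :
    Odd (Nat.card X) ↔ Odd (Nat.card (MulAction.orbitRel.Quotient D X)) := by
  classical
  have := Fintype.ofFinite (MulAction.orbitRel.Quotient D X)
  rw [Nat.card_congr (MulAction.selfEquivSigmaOrbits D X), Nat.card_sigma, Finset.odd_sum_iff_odd_card_odd]
  have h1 : (Finset.univ.filter fun ω : MulAction.orbitRel.Quotient D X =>
      Odd (Nat.card (MulAction.orbit D ω.out))) = Finset.univ := by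
    rw [Finset.filter_eq_self]
    intro ω _
    have h2 : Nat.card (MulAction.orbit D ω.out) ∣ Nat.card D := by
      rw [Nat.card_coe_set_eq, ← MulAction.index_stabilizer]
      exact Subgroup.index_dvd_card _
    exact Odd.of_dvd_nat hD h2
  rw [h1, Finset.card_univ, Nat.card_eq_fintype_card]

omit F in
theorem δ_mem_coset {J : Set I} (x : C) {y z : C} (hz : z ∈ Δ.Res J y) : (Δ.δ x y)⁻¹ * Δ.δ x z ∈ WJ cs J := by
  refine Δ.Res_induction (J := J) (p := fun z => (Δ.δ x y)⁻¹ * Δ.δ x z ∈ WJ cs J) ?_ ?_ hz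
  · rw [inv_mul_cancel]; exact one_mem _
  · intro a _ b i hi hab ih
    rcases Δ.step x a b i hab with h | h
    · rw [h, ← mul_assoc]
      exact mul_mem ih (Subgroup.subset_closure ⟨i, hi, rfl⟩)
    · rw [h]; exact ih

include S in
/-- **Parity.** -/
theorem odd_index [Finite G] [hp : Fact p.Prime] (hp2 : p ≠ 2) (hth : Δ.Thick) {J : Set I} {x : C} {P : Subgroup G}
    (hP : ¬ 2 ∣ P.index) (h1 : ∀ g ∈ P, g • Δ.Res J x = Δ.Res J x) : Odd (WJ cs J).index := by
  classical
  set R := Δ.Res J x with hR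
  have hodd : Odd (Nat.card (MulAction.orbit G R)) := by
    rw [Nat.card_coe_set_eq, ← MulAction.index_stabilizer, ← Nat.not_even_iff_odd, even_iff_two_dvd]
    intro h2
    exact hP (h2.trans (index_dvd_of_le (fun g hg => h1 g hg)))
  have hfin : Finite (MulAction.orbit G R) := (Set.finite_range (fun g : G => g • R)).to_subtype
  have hUodd : Odd (Nat.card (S.U x)) := by
    obtain ⟨n, hn⟩ := IsPGroup.iff_card.1 (S.isP x)
    rw [hn]
    exact (hp.out.odd_of_ne_two hp2).pow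
  rw [odd_card_iff (D := S.U x) hUodd] at hodd
  have hmem : ∀ y : C, Δ.Res J y ∈ MulAction.orbit G R := by
    intro y
    obtain ⟨g, hg⟩ := exists_smul S hth x y
    exact ⟨g, by change g • R = _; rw [hR, S.smul_Res, hg]⟩
  have hcard : Nat.card (MulAction.orbitRel.Quotient (S.U x) (MulAction.orbit G R)) = Nat.card (W ⧸ WJ cs J) := by
    refine card_eq_of_ker (X := C)
      (fun y => (Quotient.mk'' (⟨Δ.Res J y, hmem y⟩ : MulAction.orbit G R) :
        MulAction.orbitRel.Quotient (S.U x) (MulAction.orbit G R)))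
      (fun y => (QuotientGroup.mk (Δ.δ x y) : W ⧸ WJ cs J)) ?_ ?_ ?_
    · intro ω
      induction ω using Quotient.inductionOn' with
      | _ a =>
      obtain ⟨_, g, rfl⟩ := a
      refine ⟨g • x, ?_⟩
      change (Quotient.mk'' (⟨Δ.Res J (g • x), hmem (g • x)⟩ : MulAction.orbit G R) :
        MulAction.orbitRel.Quotient (S.U x) (MulAction.orbit G R)) = Quotient.mk'' ⟨g • R, _⟩
      congr 1
      apply Subtype.ext
      change Δ.Res J (g • x) = g • R
      rw [hR, S.smul_Res]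
    · intro ω
      obtain ⟨w, rfl⟩ := QuotientGroup.mk_surjective ω
      obtain ⟨y, hy⟩ := Δ.exists_δ x w
      exact ⟨y, by simp only [hy]⟩
    · intro y z
      rw [Quotient.eq'', MulAction.orbitRel_apply, QuotientGroup.eq]
      constructor
      · rintro ⟨⟨u, hu⟩, h2⟩
        have h3 : u • Δ.Res J z = Δ.Res J y := congrArg Subtype.val h2
        rw [S.smul_Res] at h3
        have h4 : y ∈ Δ.Res J (u • z) := by rw [h3]; exact Δ.self_mem_Res _ _
        have h5 := δ_mem_coset x (Δ.mem_Res_symm h4)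
        have h6 : Δ.δ x (u • z) = Δ.δ x z := by
          conv_lhs => rw [← S.fix x u hu]
          exact S.iso u x z
        rwa [h6] at h5
      · intro h2
        obtain ⟨t, ht, ht'⟩ := Δ.exists_δ_mul_mem_Res x (Δ.self_mem_Res J y) h2
        rw [mul_inv_cancel_left] at ht'
        obtain ⟨u, hu, hut⟩ := S.exists_move ht'.symm
        refine ⟨⟨u, hu⟩, Subtype.ext ?_⟩
        change u • Δ.Res J z = Δ.Res J y
        rw [S.smul_Res, hut, Δ.Res_eq_of_mem ht]
  rw [hcard] at hodd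
  exact hodd

/-! ### the row -/

open Cfsg.Agent.H165.RV

/-- the condition on the type: if `W_J` is proper of odd index, there is `i ∉ J` such that the double cosets of
`W_{I - i}` are self-inverse and the automorphisms of odd order of the Coxeter matrix fix `i` -/
def TyOK (cs : CoxeterSystem M W) : Prop :=
  ∀ J : Set I, J ≠ Set.univ → Odd (WJ cs J).index → ∃ i ∉ J, SelfInv cs {i}ᶜ ∧ ∀ σ ∈ autM M, Odd (orderOf σ) → σ i = i

theorem σ_pow (t : Tw Δ G) (x : C) {n : ℕ} (h : t.θ ^ n = 1) : t.σ ^ n = 1 := by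
  have h1 : ∀ (m : ℕ) (x y : C), Δ.δ ((t.θ ^ m) x) ((t.θ ^ m) y) = (t.φ : W → W)^[m] (Δ.δ x y) := by
    intro m
    induction m with
    | zero => intro x y; rfl
    | succ m ih =>
      intro x y
      rw [pow_succ', Function.iterate_succ_apply', ← ih]
      exact t.δ_θ _ _
  have h2 : ∀ (m : ℕ) (i : I), (t.φ : W → W)^[m] (cs.simple i) = cs.simple ((t.σ ^ m) i) := by
    intro m
    induction m with
    | zero => intro i; rfl
    | succ m ih =>
      intro i
      rw [Function.iterate_succ_apply', ih, pow_succ', Equiv.Perm.mul_apply]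
      exact t.φ_simple _
  ext i
  rw [Equiv.Perm.one_apply]
  apply F.inj
  rw [← h2]
  obtain ⟨y, hy⟩ := Δ.exists_δ x (cs.simple i)
  rw [← hy, ← h1, h]
  rfl

include S in
/-- **The row `NRow` for a Hall subgroup containing a Sylow `p`-subgroup.** -/
theorem nAt_of_type [Finite I] [Finite W] [Finite G] [Nontrivial G] [hp : Fact p.Prime] (hp2 : p ≠ 2) (hth : Δ.Thick)
    (hgen : ∀ K : Subgroup G, (∀ y : C, S.U y ≤ K) → K = ⊤) {π : Set ℕ} (h2 : 2 ∈ π) (hpi : p ∈ π)
    (hM : TyOK cs) (htw : ∀ τ : MulAut G, ∃ t : Tw Δ G, t.τ = τ ∧ ∀ n : ℕ, τ ^ n = 1 → t.θ ^ n = 1)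
    {H : Subgroup G} (hH : IsPiHall π H) : NAt H := by
  intro P hPH φ hφ hfix
  obtain ⟨x, P0, -, hx⟩ := exists_U_le S hH hpi (V := ⊥) IsPGroup.of_bot bot_le
  have hxH : S.U x ≤ H := by rw [hx]; exact Subgroup.map_subtype_le _
  by_cases hJ : Ty Δ H x = Set.univ
  · refine ⟨⊤, top_ne_bot, ?_, fun _ _ _ _ => Subgroup.mem_top _, ?_⟩
    · rw [hgen H (U_le_of_univ S hxH hJ)]
    · rw [eq_top_iff]
      intro g _
      exact ⟨φ.symm g, Subgroup.mem_top _, φ.apply_symm_apply g⟩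
  have hPi : ¬ 2 ∣ (P : Subgroup G).index := P.not_dvd_index
  have hstab : ∀ {K : Set I}, Ty Δ H x ⊆ K → ∀ g ∈ (P : Subgroup G), g • Δ.Res K x = Δ.Res K x :=
    fun hK g hg => smul_Res_eq S hth hxH hK (hPH hg)
  have hodd := odd_index S hp2 hth hPi (hstab (le_refl _))
  obtain ⟨i, hi, hself, hσ⟩ := hM _ hJ hodd
  set K : Set I := {i}ᶜ with hK
  have hJK : Ty Δ H x ⊆ K := by
    intro j hj
    rw [hK, Set.mem_compl_singleton_iff]
    rintro rfl
    exact hi hj
  obtain ⟨t, ht, htn⟩ := htw φ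
  have hσi : t.σ i = i := by
    apply hσ _ (tw_mem_autM t)
    refine Odd.of_dvd_nat hφ (orderOf_dvd_of_pow_eq_one (σ_pow t x (htn _ (pow_orderOf_eq_one φ))))
  have hst : t.Stab K := by
    intro j hj
    rw [hK, Set.mem_compl_singleton_iff] at hj ⊢
    intro h
    exact hj (t.σ.injective (h.trans hσi.symm))
  have himg := t.image_Res hst x
  have hPt : ∀ g ∈ (P : Subgroup G), g • Δ.Res K (t.θ x) = Δ.Res K (t.θ x) := by
    intro g hg
    have h1 : g • t.θ x = t.θ (g • x) := by rw [t.θ_smul, ht, hfix g hg]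
    rw [S.smul_Res, h1]
    apply Δ.Res_eq_of_mem
    apply t.θ_mem_Res hst
    have h2 := hstab hJK g hg
    rw [S.smul_Res] at h2
    rw [← h2]
    exact Δ.self_mem_Res _ _
  have hR := res_eq_of_swap S hth hself hPi (hstab hJK) hPt
  refine ⟨S.UR (Δ.Res K x), ?_, ?_, ?_, ?_⟩
  · -- nontrivial
    intro hbot
    obtain ⟨y, hy⟩ := Δ.exists_δ x (cs.simple i)
    have h1 : y ∈ Δ.Res K x := by
      refine mem_Res_of_fix S hth fun u hu => ?_
      rw [hbot, Subgroup.mem_bot] at hu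
      rw [hu, one_smul]
    rw [mem_Res, hy] at h1
    have h2 : i ∈ K := F.descent_mem K _ h1 i (by
      rw [cs.simple_mul_simple_self, cs.length_one, cs.length_simple]; exact one_pos)
    rw [hK] at h2
    exact h2 rfl
  · exact fun u hu => hxH (hu x (Δ.self_mem_Res _ _))
  · intro h hh n hn
    have h1 := (S.conj_mem_UR_iff (Q := Δ.Res K x) (g := h)).2 hn
    rwa [smul_Res_eq S hth hxH hJK hh] at h1
  · have hle : (S.UR (Δ.Res K x)).map (φ : G ≃* G).toMonoidHom ≤ S.UR (Δ.Res K x) := by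
      rintro _ ⟨u, hu, rfl⟩
      intro y hy
      rw [hR, ← himg] at hy
      obtain ⟨z, hz, rfl⟩ := hy
      have h1 := Cfsg.Agent.H519.Bld.τ_mem_U t (hu z hz)
      rw [ht] at h1
      exact h1
    refine Subgroup.eq_of_le_of_card_ge hle (le_of_eq ?_)
    exact (Subgroup.card_map_of_injective (f := (φ : G ≃* G).toMonoidHom) (φ : G ≃* G).injective).symm

end Cfsg.Agent.H565.RV
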