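import Cfsg.Agent.H454.PiBS.Panel
import Cfsg.Agent.H561.RV.DiagSym
import Cfsg.Agent.H565.RV.Own

/-!
# TEAM RV: the number of the residues of a building of type `D₄` (helper565)

* `Match cs K` : the left cosets of `W_K` are matched by pairs `{c, s c}`, `s` simple;
* `dvd_card_orbit` : if all panels have `N` chambers and `Match cs K` then `N` divides the number of residues of type `K`;
* `match_D4` : `Match cs {k}ᶜ` for every node `k` of `D₄`.
-/

set_option autoImplicit false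
set_option linter.unusedSectionVars false

open scoped Pointwise

namespace Cfsg.Agent.H565.RV

open Cfsg Subgroup Cfsg.Agent.Tits.Core Cfsg.Agent.Tits.Core.Bldg Cfsg.Agent.Tits.Exchange Cfsg.Agent.Tits
open Cfsg.Agent.FixBN (Sys)
open Cfsg.Agent.FixOdd (Tw)
open Cfsg.Agent.H454.PiBS
open Cfsg.Agent.LieRecognition.CoxClass (Lab mD)

variable {I : Type*} {M : CoxeterMatrix I} {W : Type*} [Group W] {cs : CoxeterSystem M W} {C : Type*}

local prefix:100 "ℓ" => cs.length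

/-- a perfect matching of the left cosets of `W_K` by simple reflections -/
def Match (cs : CoxeterSystem M W) (K : Set I) : Prop :=
  ∃ f : W ⧸ WJ cs K → I, ∀ c, cs.simple (f c) • c ≠ c ∧ f (cs.simple (f c) • c) = f c

/-- a matching from an equivariant map -/
theorem match_of_hom {Y : Type*} (φ : W →* Equiv.Perm Y) (y0 : Y) (K : Set I)
    (hK : ∀ i ∈ K, φ (cs.simple i) y0 = y0) (F : Y → I)
    (hF : ∀ y, φ (cs.simple (F y)) y ≠ y ∧ F (φ (cs.simple (F y)) y) = F y) : Match cs K := by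
  have hfix : ∀ w ∈ WJ cs K, φ w y0 = y0 := by
    intro w hw
    induction hw using Subgroup.closure_induction with
    | mem y hy => obtain ⟨i, hi, rfl⟩ := hy; exact hK i hi
    | one => rw [map_one]; rfl
    | mul a b _ _ ha hb => rw [map_mul, Equiv.Perm.mul_apply, hb, ha]
    | inv a _ ha => rw [map_inv, Equiv.Perm.inv_eq_iff_eq, ha]
  let g : W ⧸ WJ cs K → Y := Quotient.lift (fun w => φ w y0) (by
    intro a b hab
    have h1 : a⁻¹ * b ∈ WJ cs K := QuotientGroup.leftRel_apply.1 hab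
    have h2 := hfix _ h1
    change φ a y0 = φ b y0
    rw [map_mul, Equiv.Perm.mul_apply, map_inv, Equiv.Perm.inv_eq_iff_eq] at h2
    exact h2.symm)
  have hg : ∀ (w : W) (c : W ⧸ WJ cs K), g (w • c) = φ w (g c) := by
    intro w c
    induction c using QuotientGroup.induction_on with
    | _ a => 
      change φ (w * a) y0 = φ w (φ a y0)
      rw [map_mul]; rfl
  refine ⟨fun c => F (g c), fun c => ⟨fun h => ?_, ?_⟩⟩
  · apply (hF (g c)).1
    rw [← hg, h]
  · change F (g (cs.simple (F (g c)) • c)) = F (g c)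
    rw [hg]
    exact (hF (g c)).2

/-! ### the tables -/

section tables

def act0 : List (List (Fin 8)) := [[1, 0, 2, 3, 4, 5, 7, 6], [0, 2, 1, 3, 4, 6, 5, 7], [0, 1, 3, 2, 5, 4, 6, 7], [0, 1, 4, 5, 2, 3, 6, 7]]

def mt0 : List (Fin 4) := [0, 0, 2, 2, 2, 2, 0, 0]

def act1 : List (List (Fin 24)) := [[0, 2, 1, 5, 6, 3, 4, 9, 8, 7, 10, 15, 12, 17, 14, 11, 19, 13, 21, 16, 22, 18, 20, 23], [1, 0, 2, 3, 4, 8, 10, 11, 5, 13, 6, 7, 16, 9, 18, 17, 12, 15, 14, 19, 20, 21, 23, 22], [0, 3, 5, 1, 7, 2, 9, 4, 8, 6, 14, 11, 12, 18, 10, 15, 20, 21, 13, 22, 16, 17, 19, 23], [0, 4, 6, 7, 1, 9, 2, 3, 12, 5, 10, 11, 8, 16, 14, 15, 13, 19, 20, 17, 18, 22, 21, 23]]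

def mt1 : List (Fin 4) := [1, 1, 2, 3, 0, 2, 0, 3, 3, 1, 2, 0, 3, 1, 2, 0, 0, 2, 3, 0, 3, 2, 1, 1]

def act2 : List (List (Fin 8)) := [[0, 1, 3, 2, 5, 4, 6, 7], [0, 2, 1, 3, 4, 6, 5, 7], [1, 0, 2, 3, 4, 5, 7, 6], [0, 1, 4, 5, 2, 3, 6, 7]]

def mt2 : List (Fin 4) := [2, 2, 0, 0, 0, 0, 2, 2]

def act3 : List (List (Fin 8)) := [[0, 1, 3, 2, 5, 4, 6, 7], [0, 2, 1, 3, 4, 6, 5, 7], [0, 1, 4, 5, 2, 3, 6, 7], [1, 0, 2, 3, 4, 5, 7, 6]]

def mt3 : List (Fin 4) := [3, 3, 0, 0, 0, 0, 3, 3]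

/-- the content of a table -/
structure Tb (m : ℕ) (a : Fin 4 → Fin m → Fin m) (F : Fin m → Fin 4) (k : Fin 4) (y0 : Fin m) : Prop where
  invol : ∀ i y, a i (a i y) = y
  rel : ∀ i j : Fin 4, ∀ y, (fun y => a i (a j y))^[mD 4 i j] y = y
  fix : ∀ i, i ≠ k → a i y0 = y0
  mt : ∀ y, a (F y) y ≠ y ∧ F (a (F y) y) = F y

def fn {m : ℕ} (l : List (List (Fin (m + 1)))) (i : Fin 4) (y : Fin (m + 1)) : Fin (m + 1) := (l.getD i.val []).getD y.val 0

def gn {m : ℕ} (l : List (Fin 4)) (y : Fin (m + 1)) : Fin 4 := l.getD y.val 0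

theorem tb0 : Tb 8 (fn act0) (gn mt0) 0 0 := by constructor <;> decide +kernel

theorem tb1 : Tb 24 (fn act1) (gn mt1) 1 0 := by constructor <;> decide +kernel

theorem tb2 : Tb 8 (fn act2) (gn mt2) 2 0 := by constructor <;> decide +kernel

theorem tb3 : Tb 8 (fn act3) (gn mt3) 3 0 := by constructor <;> decide +kernel

theorem match_of_tb (v : Fin 4 ≃ I) (hv : Lab M v (mD 4)) {m : ℕ} {a : Fin 4 → Fin m → Fin m} {F : Fin m → Fin 4}
    {k : Fin 4} {y0 : Fin m} (T : Tb m a F k y0) : Match cs ({v k}ᶜ : Set I) := by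
  let P : Fin 4 → Equiv.Perm (Fin m) := fun i => ⟨a i, a i, T.invol i, T.invol i⟩
  have hP : ∀ i y, P i y = a i y := fun i y => rfl
  have hlift : CoxeterMatrix.IsLiftable M (fun b => P (v.symm b)) := by
    intro i j
    obtain ⟨i, rfl⟩ := v.surjective i
    obtain ⟨j, rfl⟩ := v.surjective j
    simp only [Equiv.symm_apply_apply]
    rw [hv]
    ext y
    rw [Equiv.Perm.one_apply]
    congr 1
    have h1 : ∀ n : ℕ, ((P i * P j) ^ n) y = (fun y => a i (a j y))^[n] y := by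
      intro n
      induction n with
      | zero => rfl
      | succ n ih =>
        rw [pow_succ', Equiv.Perm.mul_apply, ih, Function.iterate_succ_apply']
        rfl
    rw [h1, T.rel i j y]
  let φ : W →* Equiv.Perm (Fin m) := cs.lift ⟨_, hlift⟩
  have hφ : ∀ i, φ (cs.simple (v i)) = P i := by
    intro i
    have := cs.lift_apply_simple hlift (v i)
    rw [Equiv.symm_apply_apply] at this
    exact this
  refine match_of_hom φ y0 _ ?_ (fun y => v (F y)) ?_
  · intro b hb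
    obtain ⟨i, rfl⟩ := v.surjective b
    rw [hφ]
    refine T.fix i fun h => ?_
    rw [h] at hb
    exact hb rfl
  · intro y
    rw [hφ]
    exact ⟨(T.mt y).1, congrArg v (T.mt y).2⟩

/-- **the matchings for `D₄`** -/
theorem match_D4 (v : Fin 4 ≃ I) (hv : Lab M v (mD 4)) (k : I) : Match cs ({k}ᶜ : Set I) := by
  obtain ⟨k, rfl⟩ := v.surjective k
  fin_cases k
  · exact match_of_tb v hv tb0
  · exact match_of_tb v hv tb1
  · exact match_of_tb v hv tb2
  · exact match_of_tb v hv tb3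

end tables

end Cfsg.Agent.H565.RV
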